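import Cfsg.Agent.TwoTimesDihedralEight.Model
import Cfsg.Agent.Transfer.ThompsonTransfer
import Mathlib.GroupTheory.Sylow

/-!
Fusion of involutions when a Sylow 2-subgroup is the product of a group of order 2 and the
dihedral group of order 8: there is a subgroup of index 2.
-/

set_option autoImplicit false

namespace CfsgLib.TwoTimesDihedralEight

variable {G : Type*} [Group G] [Finite G]

/-- Two embeddings of a Sylow subgroup in `H` differ by an element of `H` and of the normalizer. -/
theorem exists_mul_mem_normalizer (S : Sylow 2 G) (H : Subgroup G) (hS : (S : Subgroup G) ≤ H)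
    (g : G) (hg : ∀ x ∈ (S : Subgroup G), g * x * g⁻¹ ∈ H) :
    ∃ h ∈ H, h * g ∈ Subgroup.normalizer ((S : Subgroup G) : Set G) := by
  have hle : ((g • S : Sylow 2 G) : Subgroup G) ≤ H := by
    rintro _ ⟨x, hx, rfl⟩
    exact hg x hx
  obtain ⟨h, hh⟩ := MulAction.exists_smul_eq H ((g • S).subtype hle) (S.subtype hS)
  refine ⟨h, h.2, ?_⟩
  rw [Sylow.smul_subtype] at hh
  have h2 := Sylow.subtype_injective hh
  rw [Subgroup.smul_def, smul_smul] at h2
  exact Sylow.smul_eq_iff_mem_normalizer.1 h2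

variable (S : Sylow 2 G) (e : M0 ≃* (S : Subgroup G))

/-- Conjugacy in `G`, read in the model. -/
def Rel (x y : M0) : Prop := ∃ g : G, g * (e x : G) * g⁻¹ = (e y : G)

variable {S e}

theorem Rel.trans {x y w : M0} : Rel S e x y → Rel S e y w → Rel S e x w := by
  rintro ⟨g, hg⟩ ⟨h, hh⟩
  exact ⟨h * g, by rw [← hh, ← hg]; group⟩

theorem Rel.symm {x y : M0} : Rel S e x y → Rel S e y x := by
  rintro ⟨g, hg⟩
  exact ⟨g⁻¹, by rw [← hg]; group⟩

theorem rel_conj (x y : M0) : Rel S e x (y * x * y⁻¹) := by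
  refine ⟨(e y : G), ?_⟩
  simp

theorem e_inj {x y : M0} (h : (e x : G) = (e y : G)) : x = y := e.injective (Subtype.ext h)

variable (S e)

/-- An element of the normalizer of `S`, acting on the model. -/
theorem exists_aut {n : G} (hn : n ∈ Subgroup.normalizer ((S : Subgroup G) : Set G)) :
    ∃ φ : MulAut M0, ∀ x, (e (φ x) : G) = n * (e x : G) * n⁻¹ := by
  let c : M0 →* M0 :=
    { toFun := fun x => e.symm ⟨n * (e x : G) * n⁻¹,
        (Subgroup.mem_normalizer_iff.1 hn _).1 (e x).2⟩
      map_one' := by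
        apply e.injective
        apply Subtype.ext
        simp
      map_mul' := fun x y => by
        apply e.injective
        apply Subtype.ext
        simp }
  have hc : Function.Bijective c := by
    refine (Finite.injective_iff_bijective (α := M0)).1 fun x y h => ?_
    have h' : n * (e x : G) * n⁻¹ = n * (e y : G) * n⁻¹ := by
      simpa [c] using congrArg (fun w => (e w : G)) h
    exact e_inj (S := S) (e := e) (by simpa using h')
  refine ⟨MulEquiv.ofBijective c hc, fun x => ?_⟩
  show (e (c x) : G) = _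
  simp [c]

/-- An element of the normalizer fixes a two-valued invariant that inner automorphisms fix. -/
theorem invariant_fixed {n : G} (hn : n ∈ Subgroup.normalizer ((S : Subgroup G) : Set G))
    {φ : MulAut M0} (hφ : ∀ x, (e (φ x) : G) = n * (e x : G) * n⁻¹) (P : M0 → Bool) (b : M0)
    (hb : ∀ y, P (y * b * y⁻¹) = P b) (hstep : ∀ j : ℕ, P ((φ ^ (j + 1)) b) = !P ((φ ^ j) b)) :
    False := by
  set N := Subgroup.normalizer ((S : Subgroup G) : Set G)
  have hle : (S : Subgroup G) ≤ N := Subgroup.le_normalizer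
  set T := (S : Subgroup G).subgroupOf N with hT
  have hTn : T.Normal := Subgroup.normal_in_normalizer
  have hodd : Odd T.index := by
    rw [Nat.odd_iff, ← Nat.not_even_iff, even_iff_two_dvd]
    exact (S.subtype hle).not_dvd_index
  obtain ⟨m, hm⟩ : ∃ m, T.index = 2 * m + 1 := hodd
  have hmem : n ^ T.index ∈ (S : Subgroup G) := T.pow_index_mem ⟨n, hn⟩
  have hpow : ∀ j : ℕ, (e ((φ ^ j) b) : G) = n ^ j * (e b : G) * (n ^ j)⁻¹ := by
    intro j
    induction j with
    | zero => simp
    | succ j ih =>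
      rw [pow_succ', MulAut.mul_apply, hφ, ih, pow_succ']
      group
  have hinner : (φ ^ T.index) b = e.symm ⟨_, hmem⟩ * b * (e.symm ⟨_, hmem⟩)⁻¹ := by
    apply e_inj (S := S) (e := e)
    rw [hpow]
    simp
  have hpar : ∀ j : ℕ, P ((φ ^ (2 * j)) b) = P b := by
    intro j
    induction j with
    | zero => simp
    | succ j ih => rw [Nat.mul_succ, hstep, hstep, ih, Bool.not_not]
  have h1 := hstep (2 * m)
  rw [← hm, hinner, hb, hpar] at h1
  cases hP : P b <;> simp [hP] at h1

theorem aut_fix_zz (φ : MulAut M0) : φ zz = zz := by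
  obtain ⟨x, y, hxy⟩ := exists_commutator
  rcases commutator_eq (φ x) (φ y) with h | h
  · exfalso
    rw [← map_inv, ← map_inv, ← map_mul, ← map_mul, ← map_mul, hxy] at h
    exact (by decide : zz ≠ (1 : M0)) (φ.injective (h.trans (map_one φ).symm))
  · rw [← map_inv, ← map_inv, ← map_mul, ← map_mul, ← map_mul, hxy] at h
    exact h

theorem aut_comm (φ : MulAut M0) {x : M0} (hx : ∀ y, x * y = y * x) (y : M0) :
    φ x * y = y * φ x := by
  obtain ⟨y, rfl⟩ := φ.surjective y
  rw [← map_mul, hx, map_mul]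

theorem aa_comm (y : M0) : aa * y = y * aa := ((central_comm y).2).symm

/-- The normalizer fixes the central involutions. -/
theorem normalizer_fix_aa {n : G} (hn : n ∈ Subgroup.normalizer ((S : Subgroup G) : Set G))
    {φ : MulAut M0} (hφ : ∀ x, (e (φ x) : G) = n * (e x : G) * n⁻¹) : φ aa = aa := by
  have hz := aut_fix_zz φ
  rcases central_involution _ (aut_comm φ aa_comm) with h | h | h | h
  · exact absurd (φ.injective (h.trans (map_one φ).symm)) (by decide)
  · exact absurd (φ.injective (h.trans hz.symm)) (by decide)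
  · exact h
  · exfalso
    have h2 : φ (aa * zz) = aa := by
      rw [map_mul, h, hz]; decide
    have hj : ∀ j : ℕ, (φ ^ j) aa = aa ∧ (φ ^ (j + 1)) aa = aa * zz ∨
        (φ ^ j) aa = aa * zz ∧ (φ ^ (j + 1)) aa = aa := by
      intro j
      induction j with
      | zero => exact Or.inl ⟨rfl, by simpa using h⟩
      | succ j ih =>
        rcases ih with ⟨-, h'⟩ | ⟨-, h'⟩
        · exact Or.inr ⟨h', by rw [pow_succ', MulAut.mul_apply, h', h2]⟩
        · exact Or.inl ⟨h', by rw [pow_succ', MulAut.mul_apply, h', h]⟩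
    refine invariant_fixed S e hn hφ (fun x => decide (x = aa)) aa (fun y => ?_) fun j => ?_
    · congr 1
      rw [← aa_comm, mul_inv_cancel_right]
    · rcases hj j with ⟨h1, h2⟩ | ⟨h1, h2⟩ <;> simp [h1, h2] <;> decide

theorem eq_of_rel_central {x y : M0} (hx : ∀ w, x * w = w * x) (hy : ∀ w, y * w = w * y)
    (h : Rel S e x y) : x = y := by
  obtain ⟨g, hg⟩ := h
  let C : Subgroup G := Subgroup.centralizer {(e y : G)}
  have hcom : ∀ {u : M0}, (∀ w, u * w = w * u) → ∀ s ∈ (S : Subgroup G), s * (e u : G) = e u * s := by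
    intro u hu s hs
    obtain ⟨w, hw⟩ := e.surjective ⟨s, hs⟩
    have := congrArg (fun v => (e v : G)) (hu w)
    simp [hw] at this
    exact this.symm
  have hS : (S : Subgroup G) ≤ C := fun s hs =>
    Subgroup.mem_centralizer_singleton_iff.2 (hcom hy s hs)
  have hgS : ∀ s ∈ (S : Subgroup G), g * s * g⁻¹ ∈ C := fun s hs => by
    refine Subgroup.mem_centralizer_singleton_iff.2 ?_
    rw [← hg]
    calc g * s * g⁻¹ * (g * (e x : G) * g⁻¹) = g * (s * e x) * g⁻¹ := by group
      _ = g * (e x * s) * g⁻¹ := by rw [hcom hx s hs]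
      _ = g * (e x : G) * g⁻¹ * (g * s * g⁻¹) := by group
  obtain ⟨c, hc, hn⟩ := exists_mul_mem_normalizer S C hS g hgS
  obtain ⟨φ, hφ⟩ := exists_aut S e hn
  have h1 : φ x = y := by
    apply e_inj (S := S) (e := e)
    rw [hφ, show c * g * (e x : G) * (c * g)⁻¹ = c * (g * (e x : G) * g⁻¹) * c⁻¹ by group, hg,
      Subgroup.mem_centralizer_singleton_iff.1 hc, mul_inv_cancel_right]
  have ha := normalizer_fix_aa S e hn hφ
  have hz := aut_fix_zz φ
  rcases central_involution x hx with rfl | rfl | rfl | rfl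
  · rw [← h1, map_one]
  · rw [← h1, hz]
  · rw [← h1, ha]
  · rw [← h1, map_mul, ha, hz]

theorem bb_not_central : ∀ k, bb k * bb k = 1 ∧ bb k ≠ 1 ∧ bb k ≠ zz ∧ bb k ≠ aa ∧ bb k ≠ aa * zz := by
  decide +kernel

/-- The normalizer fixes both elementary abelian subgroups. -/
theorem normalizer_fix_Ek {n : G} (hn : n ∈ Subgroup.normalizer ((S : Subgroup G) : Set G))
    {φ : MulAut M0} (hφ : ∀ x, (e (φ x) : G) = n * (e x : G) * n⁻¹) {k j : Bool}
    (h : ∀ x, inE k x = true → inE j (φ x) = true) : k = j := by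
  by_contra hne
  have hkj : j = !k := by cases k <;> cases j <;> simp_all
  subst hkj
  have hdich : ∀ u : M0, u * u = 1 → u ≠ 1 → u ≠ zz → u ≠ aa → u ≠ aa * zz →
      φ u * φ u = 1 ∧ φ u ≠ 1 ∧ φ u ≠ zz ∧ φ u ≠ aa ∧ φ u ≠ aa * zz := by
    intro u h1 h2 h3 h4 h5
    refine ⟨by rw [← map_mul, h1, map_one], ?_, ?_, ?_, ?_⟩
    · exact fun h => h2 (φ.injective (h.trans (map_one φ).symm))
    · exact fun h => h3 (φ.injective (h.trans (aut_fix_zz φ).symm))
    · exact fun h => h4 (φ.injective (h.trans (normalizer_fix_aa S e hn hφ).symm))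
    · refine fun h => h5 (φ.injective (h.trans ?_))
      rw [map_mul, normalizer_fix_aa S e hn hφ, aut_fix_zz]
  have hswap : ∀ u : M0, u * u = 1 → u ≠ 1 → u ≠ zz → u ≠ aa → u ≠ aa * zz →
      inE k (φ u) = !inE k u := by
    intro u h1 h2 h3 h4 h5
    obtain ⟨g1, g2, g3, g4, g5⟩ := hdich u h1 h2 h3 h4 h5
    obtain ⟨hc, hin, hout⟩ := centralizer_noncentral (φ u) g1 g2 g3 g4 g5
    obtain ⟨hc', hin', hout'⟩ := centralizer_noncentral u h1 h2 h3 h4 h5
    cases hk : inE k u
    · -- `u` is in the other subgroup and does not centralize `bb k`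
      cases hk' : inE k (φ u)
      · exfalso
        obtain ⟨-, -, -, hbk, -⟩ := central_mem k
        have hbφ := h (bb k) hbk
        obtain ⟨b1, b2, b3, b4, b5⟩ := bb_not_central k
        have hne1 : ¬ bb k * u = u * bb k := by
          intro hcm
          have := (hc' (bb k)).1 hcm
          have hu' : inE true u = !k := by
            cases k <;> cases hh : inE true u <;> simp_all
          rw [hu'] at this
          obtain ⟨-, -, -, -, hb'⟩ := central_mem k
          rw [hb'] at this
          exact Bool.noConfusion this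
        apply hne1
        apply φ.injective
        rw [map_mul, map_mul]
        refine (hc (φ (bb k))).2 ?_
        have hu'' : inE true (φ u) = !k := by
          cases k <;> cases hh : inE true (φ u) <;> simp_all
        rw [hu'']
        exact hbφ
      · rfl
    · have h6 := h u hk
      cases hk' : inE k (φ u)
      · rfl
      · exfalso
        cases k <;> cases hh : inE true (φ u) <;> simp_all
  obtain ⟨b1, b2, b3, b4, b5⟩ := bb_not_central k
  refine invariant_fixed S e hn hφ (inE k) (bb k) (fun y => ?_) fun i => ?_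
  · obtain ⟨-, -, -, hbk, -⟩ := central_mem k
    rw [hbk, Ek_normal k _ y hbk]
  · have hall : ∀ i : ℕ, (φ ^ i) (bb k) * (φ ^ i) (bb k) = 1 ∧ (φ ^ i) (bb k) ≠ 1 ∧
        (φ ^ i) (bb k) ≠ zz ∧ (φ ^ i) (bb k) ≠ aa ∧ (φ ^ i) (bb k) ≠ aa * zz := by
      intro i
      induction i with
      | zero => simpa using ⟨b1, b2, b3, b4, b5⟩
      | succ i ih =>
        obtain ⟨a1, a2, a3, a4, a5⟩ := ih
        rw [pow_succ', MulAut.mul_apply]
        exact hdich _ a1 a2 a3 a4 a5
    obtain ⟨a1, a2, a3, a4, a5⟩ := hall i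
    rw [pow_succ', MulAut.mul_apply]
    exact hswap _ a1 a2 a3 a4 a5

/-- A non-central involution conjugate to a central one is moved to it inside its subgroup. -/
theorem exists_perm {k : Bool} {c : M0} (hc : ∀ w, c * w = w * c) (h : Rel S e (bb k) c) :
    ∃ π : M0 → M0, π (bb k) = c ∧ (∀ x, inE k x = true → inE k (π x) = true ∧ Rel S e x (π x)) ∧
      (∀ x y, inE k x = true → inE k y = true → π (x * y) = π x * π y) ∧
      ∀ x y, inE k x = true → inE k y = true → π x = π y → x = y := by
  obtain ⟨g₀, hg₀⟩ := h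
  let C : Subgroup G := Subgroup.centralizer {(e c : G)}
  have hS : (S : Subgroup G) ≤ C := fun s hs => by
    obtain ⟨w, hw⟩ := e.surjective ⟨s, hs⟩
    refine Subgroup.mem_centralizer_singleton_iff.2 ?_
    have := congrArg (fun v => (e v : G)) (hc w)
    simp [hw] at this
    exact this.symm
  let Es : Bool → Subgroup G := fun j => ((Ek j).map e.toMonoidHom).map (S : Subgroup G).subtype
  have hEs : ∀ {j : Bool} {x : M0}, inE j x = true → (e x : G) ∈ Es j := fun {j x} hx =>
    ⟨e x, ⟨x, hx, rfl⟩, rfl⟩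
  have hEsinv : ∀ {j : Bool} {v : G}, v ∈ Es j → ∃ x, inE j x = true ∧ (e x : G) = v := by
    rintro j _ ⟨_, ⟨x, hx, rfl⟩, rfl⟩
    exact ⟨x, hx, rfl⟩
  obtain ⟨-, -, -, hbk, -⟩ := central_mem k
  let A : Subgroup G := (Es k).map (MulAut.conj g₀).toMonoidHom
  have hAC : A ≤ C := by
    rintro _ ⟨v, hv, rfl⟩
    obtain ⟨x, hx, rfl⟩ := hEsinv hv
    refine Subgroup.mem_centralizer_singleton_iff.2 ?_
    show g₀ * (e x : G) * g₀⁻¹ * (e c : G) = (e c : G) * (g₀ * (e x : G) * g₀⁻¹)
    rw [← hg₀]
    have hcm := congrArg (fun v => (e v : G)) (Ek_abelian k x (bb k) hx hbk).2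
    simp at hcm
    calc g₀ * (e x : G) * g₀⁻¹ * (g₀ * (e (bb k) : G) * g₀⁻¹)
        = g₀ * ((e x : G) * e (bb k)) * g₀⁻¹ := by group
      _ = g₀ * ((e (bb k) : G) * e x) * g₀⁻¹ := by rw [hcm]
      _ = g₀ * (e (bb k) : G) * g₀⁻¹ * (g₀ * (e x : G) * g₀⁻¹) := by group
  have hA2 : IsPGroup 2 A :=
    ((S.isPGroup'.to_le (by rintro _ ⟨y, -, rfl⟩; exact y.2)).map _)
  obtain ⟨d, hdC, hd⟩ : ∃ d ∈ C, ∀ v ∈ A, d * v * d⁻¹ ∈ (S : Subgroup G) := by
    have hA' : IsPGroup 2 (A.subgroupOf C) :=
      hA2.comap_of_injective _ C.subtype_injective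
    obtain ⟨Q, hQ⟩ := hA'.exists_le_sylow
    obtain ⟨d, hd⟩ := MulAction.exists_smul_eq C Q (S.subtype hS)
    refine ⟨d, d.2, fun v hv => ?_⟩
    have h1 : d * (⟨v, hAC hv⟩ : C) * d⁻¹ ∈ ((S.subtype hS : Sylow 2 C) : Subgroup C) := by
      rw [← hd]
      exact ⟨⟨v, hAC hv⟩, hQ hv, rfl⟩
    exact h1
  set g := d * g₀ with hgdef
  have hgbb : g * (e (bb k) : G) * g⁻¹ = (e c : G) := by
    rw [hgdef, show d * g₀ * (e (bb k) : G) * (d * g₀)⁻¹ = d * (g₀ * (e (bb k) : G) * g₀⁻¹) * d⁻¹ by
      group, hg₀, Subgroup.mem_centralizer_singleton_iff.1 hdC, mul_inv_cancel_right]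
  have hgS : ∀ x, inE k x = true → g * (e x : G) * g⁻¹ ∈ (S : Subgroup G) := fun x hx => by
    rw [hgdef, show d * g₀ * (e x : G) * (d * g₀)⁻¹ = d * (g₀ * (e x : G) * g₀⁻¹) * d⁻¹ by group]
    exact hd _ ⟨_, hEs hx, rfl⟩
  classical
  let π : M0 → M0 := fun x => if hx : inE k x = true then e.symm ⟨_, hgS x hx⟩ else 1
  have hπ : ∀ x, inE k x = true → (e (π x) : G) = g * (e x : G) * g⁻¹ := fun x hx => by
    simp [π, hx]
  have hmul : ∀ x y, inE k x = true → inE k y = true → π (x * y) = π x * π y := fun x y hx hy => by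
    apply e_inj (S := S) (e := e)
    rw [hπ _ ((Ek k).mul_mem hx hy)]
    simp [hπ x hx, hπ y hy, mul_assoc]
  have hinj : ∀ x y, inE k x = true → inE k y = true → π x = π y → x = y := fun x y hx hy hxy => by
    have h1 := congrArg (fun v => (e v : G)) hxy
    simp only [hπ x hx, hπ y hy] at h1
    exact e_inj (S := S) (e := e) (by simpa using h1)
  have h11 : π 1 = 1 := by
    apply e_inj (S := S) (e := e)
    rw [hπ 1 (Ek k).one_mem]; simp
  -- the image is one of the two subgroups
  obtain ⟨v, hv, hv0⟩ : ∃ v, inE k v = true ∧ π v ≠ 1 ∧ π v ≠ zz ∧ π v ≠ aa ∧ π v ≠ aa * zz := by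
    by_contra hcon
    push_neg at hcon
    have hsub : (Finset.univ.filter fun x : M0 => inE k x = true).image π ⊆
        {1, zz, aa, aa * zz} := by
      intro w hw
      simp only [Finset.mem_image, Finset.mem_filter, Finset.mem_univ, true_and] at hw
      obtain ⟨x, hx, rfl⟩ := hw
      simp only [Finset.mem_insert, Finset.mem_singleton]
      by_cases h1 : π x = 1
      · exact Or.inl h1
      by_cases h2 : π x = zz
      · exact Or.inr (Or.inl h2)
      by_cases h3 : π x = aa
      · exact Or.inr (Or.inr (Or.inl h3))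
      exact Or.inr (Or.inr (Or.inr (hcon x hx h1 h2 h3)))
    have hcard := Finset.card_le_card hsub
    rw [Finset.card_image_of_injOn (fun x hx y hy => by
      simp only [Finset.coe_filter, Finset.mem_univ, true_and, Set.mem_setOf_eq] at hx hy
      exact hinj x y hx hy), card_Ek] at hcard
    have : ({1, zz, aa, aa * zz} : Finset M0).card ≤ 4 := Finset.card_le_four
    omega
  have hsq : ∀ x, inE k x = true → π x * π x = 1 := fun x hx => by
    rw [← hmul x x hx hx, (Ek_abelian k x x hx hx).1, h11]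
  obtain ⟨hcv, -, -⟩ := centralizer_noncentral (π v) (hsq v hv) hv0.1 hv0.2.1 hv0.2.2.1 hv0.2.2.2
  set j := inE true (π v)
  have himg : ∀ x, inE k x = true → inE j (π x) = true := fun x hx =>
    (hcv (π x)).1 (by rw [← hmul x v hx hv, ← hmul v x hv hx, (Ek_abelian k x v hx hv).2])
  have hjk : k = j := by
    let H : Subgroup G := Subgroup.normalizer ((Es j : Subgroup G) : Set G)
    have hEmap : (Es k).map (MulAut.conj g).toMonoidHom = Es j := by
      refine Subgroup.eq_of_le_of_card_ge ?_ ?_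
      · rintro _ ⟨w, hw, rfl⟩
        obtain ⟨x, hx, rfl⟩ := hEsinv hw
        show g * (e x : G) * g⁻¹ ∈ Es j
        rw [← hπ x hx]
        exact hEs (himg x hx)
      · have hc8 : ∀ i, Nat.card (Es i) = 8 := fun i => by
          rw [Subgroup.card_map_of_injective (S : Subgroup G).subtype_injective,
            Subgroup.card_map_of_injective (fun a b hab => e.injective hab),
            ← card_Ek i, Nat.card_eq_fintype_card]
          exact Fintype.card_of_subtype _ (fun x => by simp [mem_Ek])
        rw [Subgroup.card_map_of_injective (f := (MulAut.conj g).toMonoidHom) (MulAut.conj g).injective,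
          hc8, hc8]
    have hSN : ∀ i, (S : Subgroup G) ≤ Subgroup.normalizer ((Es i : Subgroup G) : Set G) := by
      intro i s hs
      refine Subgroup.mem_normalizer_fintype fun w hw => ?_
      obtain ⟨x, hx, rfl⟩ := hEsinv hw
      obtain ⟨y, hy⟩ := e.surjective ⟨s, hs⟩
      have := hEs (Ek_normal i x y hx)
      simpa [hy] using this
    have hgN : ∀ s ∈ (S : Subgroup G), g * s * g⁻¹ ∈ H := fun s hs => by
      have h1 : g * s * g⁻¹ ∈ (Subgroup.normalizer ((Es k : Subgroup G) : Set G)).map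
          (MulAut.conj g).toMonoidHom := ⟨s, hSN k hs, rfl⟩
      rw [Subgroup.map_equiv_normalizer_eq, hEmap] at h1
      exact h1
    obtain ⟨n, hnH, hn⟩ := exists_mul_mem_normalizer S H (hSN j) g hgN
    obtain ⟨φ, hφ⟩ := exists_aut S e hn
    refine normalizer_fix_Ek S e hn hφ fun x hx => ?_
    have h1 : (e (φ x) : G) ∈ Es j := by
      rw [hφ, show n * g * (e x : G) * (n * g)⁻¹ = n * (g * (e x : G) * g⁻¹) * n⁻¹ by group,
        ← hπ x hx]
      exact (Subgroup.mem_normalizer_iff.1 hnH _).1 (hEs (himg x hx))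
    obtain ⟨y, hy, hye⟩ := hEsinv h1
    exact e_inj hye ▸ hy
  refine ⟨π, e_inj ((hπ _ hbk).trans hgbb), fun x hx => ⟨hjk ▸ himg x hx, g, (hπ x hx).symm⟩,
    hmul, hinj⟩

theorem Ek_elems : ∀ k x, inE k x = true → x = 1 ∨ x = zz ∨ x = aa * zz ∨ x = aa ∨ x = bb k ∨
    x = bb k * zz ∨ x = bb k * aa ∨ x = bb k * aa * zz := by decide +kernel

theorem bb_conj : ∀ k, (∃ y, bb k * zz = y * bb k * y⁻¹) ∧
    ∃ y, bb k * aa * zz = y * (bb k * aa) * y⁻¹ := by decide +kernel

/-- Both classes outside the centre of one subgroup are never fused to the same central one. -/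
theorem not_both {k : Bool} (h1 : Rel S e (bb k) aa) (h2 : Rel S e (bb k * aa) aa) : False := by
  have hzc : ∀ w, zz * w = w * zz := fun w => ((central_comm w).1).symm
  have hazc : ∀ w, aa * zz * w = w * (aa * zz) := fun w => by
    rw [mul_assoc, hzc, ← mul_assoc, aa_comm, mul_assoc]
  obtain ⟨π, hπb, hπE, hπm, hπi⟩ := exists_perm S e aa_comm h1
  obtain ⟨hzE, haE, hazE, hbE, -⟩ := central_mem k
  obtain ⟨⟨y₁, hy₁⟩, y₂, hy₂⟩ := bb_conj k
  have hcls : ∀ x, inE k x = true → x = 1 ∨ x = zz ∨ x = aa * zz ∨ Rel S e x aa := by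
    intro x hx
    rcases Ek_elems k x hx with h | h | h | rfl | rfl | rfl | rfl | rfl
    · exact Or.inl h
    · exact Or.inr (Or.inl h)
    · exact Or.inr (Or.inr (Or.inl h))
    · exact Or.inr (Or.inr (Or.inr ⟨1, by simp⟩))
    · exact Or.inr (Or.inr (Or.inr h1))
    · exact Or.inr (Or.inr (Or.inr (hy₁ ▸ ((rel_conj _ _).symm.trans h1))))
    · exact Or.inr (Or.inr (Or.inr h2))
    · exact Or.inr (Or.inr (Or.inr (hy₂ ▸ ((rel_conj _ _).symm.trans h2))))
  have hfix : ∀ c, inE k c = true → (∀ w, c * w = w * c) → c ≠ 1 → c ≠ aa → π c = c := by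
    intro c hcE hcc hc1 hca
    obtain ⟨hE, hR⟩ := hπE c hcE
    rcases hcls _ hE with h | h | h | h
    · exfalso
      obtain ⟨g, hg⟩ := hR
      rw [h] at hg
      exact hc1 (e_inj (S := S) (e := e) (by simpa using hg))
    · rw [h] at hR ⊢
      exact (eq_of_rel_central S e hcc hzc hR).symm
    · rw [h] at hR ⊢
      exact (eq_of_rel_central S e hcc hazc hR).symm
    · exact absurd (eq_of_rel_central S e hcc aa_comm (hR.trans h)) hca
  have hz := hfix zz hzE hzc (by decide) (by decide)
  have haz := hfix (aa * zz) hazE hazc (by decide) (by decide)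
  have ha : π aa = aa := by
    have h := hπm zz (aa * zz) hzE hazE
    rw [hz, haz, show zz * (aa * zz) = aa by decide] at h
    exact h
  have := hπi _ _ hbE haE (hπb.trans ha.symm)
  exact (bb_not_central k).2.2.2.1 this

/-- There is a subgroup of index 2. -/
theorem exists_index_two (S : Sylow 2 G) (e : M0 ≃* (S : Subgroup G)) : ∃ M : Subgroup G, M.Normal ∧ M.index = 2 := by
  classical
  let ε : Bool → Bool := fun k => decide (Rel S e (bb k) aa)
  let w : Bool → M0 := fun k => bb k * cond (ε k) aa 1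
  have hw : ∀ k, ¬ Rel S e (w k) aa := by
    intro k h
    by_cases hb : Rel S e (bb k) aa
    · simp only [w, ε, hb, decide_true, cond_true] at h
      exact not_both S e hb h
    · simp only [w, ε, hb, decide_false, cond_false, mul_one] at h
  let K : Subgroup M0 :=
    { carrier := {x | lam (ε false) (ε true) x = false}
      one_mem' := by
        show lam _ _ 1 = false
        cases ε false <;> cases ε true <;> rfl
      mul_mem' := fun {x y} (hx : lam _ _ x = false) (hy : lam _ _ y = false) => by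
        show lam _ _ (x * y) = false
        rw [lam_mul, hx, hy]; rfl
      inv_mem' := fun {x} (hx : lam _ _ x = false) => by
        show lam _ _ x⁻¹ = false
        have h1 : lam (ε false) (ε true) (x * x⁻¹) = false := by
          rw [mul_inv_cancel]
          cases ε false <;> cases ε true <;> rfl
        rw [lam_mul, hx, Bool.false_xor] at h1
        exact h1 }
  let Q : Subgroup G := (K.map e.toMonoidHom).map (S : Subgroup G).subtype
  have hQS : Q ≤ (S : Subgroup G) := by rintro _ ⟨y, -, rfl⟩; exact y.2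
  have hQi : Q.relIndex (S : Subgroup G) = 2 := by
    show (Q.subgroupOf (S : Subgroup G)).index = 2
    rw [Subgroup.subgroupOf, Subgroup.comap_map_eq_self_of_injective
      (S : Subgroup G).subtype_injective, Subgroup.index_map_of_bijective (f := e.toMonoidHom) e.bijective,
      Subgroup.index_eq_two_iff]
    refine ⟨aa, fun b => ?_⟩
    show Xor' (lam _ _ (b * aa) = false) (lam _ _ b = false)
    rw [lam_mul, lam_aa]
    cases lam (ε false) (ε true) b <;> simp [Xor']
  have haQ : (e aa : G) ∉ Q := by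
    rintro ⟨_, ⟨x, hx, rfl⟩, hxa⟩
    rw [show x = aa from e_inj hxa] at hx
    have := lam_aa (ε false) (ε true)
    rw [show lam (ε false) (ε true) aa = false from hx] at this
    exact Bool.noConfusion this
  have hord : orderOf (e aa : G) = 2 := by
    rw [Subgroup.orderOf_coe, MulEquiv.orderOf_eq]
    exact orderOf_eq_prime (by decide) (by decide)
  rcases Transfer.thompsonTransferLemma S Q hQS hQi _ hord (e aa).2 haQ with
    ⟨M, h1, h2, -⟩ | ⟨g, hg⟩
  · exact ⟨M, h1, h2⟩
  exfalso
  obtain ⟨_, ⟨x, hx, rfl⟩, hxg⟩ := hg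
  have hR : Rel S e aa x := ⟨g, hxg.symm⟩
  have hxx : x * x = 1 := by
    apply e_inj (S := S) (e := e)
    have h2 : (e aa : G) * (e aa : G) = 1 := by
      rw [← Subgroup.coe_mul, ← map_mul, show aa * aa = (1 : M0) by decide, map_one]; rfl
    have hxg' : (e x : G) = g * (e aa : G) * g⁻¹ := hxg
    simp only [map_mul, Subgroup.coe_mul, map_one, Subgroup.coe_one, hxg']
    calc g * (e aa : G) * g⁻¹ * (g * (e aa : G) * g⁻¹)
        = g * ((e aa : G) * e aa) * g⁻¹ := by group
      _ = 1 := by rw [h2]; group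
  have hx1 : x ≠ 1 := by
    rintro rfl
    have hxg' : g * (e aa : G) * g⁻¹ = 1 := by simpa using hxg.symm
    rw [conj_eq_one_iff] at hxg'
    rw [hxg', orderOf_one] at hord
    exact absurd hord (by norm_num)
  rcases lam_involution _ _ x hxx hx1 hx with rfl | ⟨k, -, -, h | h⟩
  · exact (by decide : aa ≠ zz)
      (eq_of_rel_central S e aa_comm (fun w => ((central_comm w).1).symm) hR)
  · refine hw k (?_ : Rel S e (w k) aa)
    have : w k = x := by rw [h]; cases k <;> rfl
    exact this ▸ hR.symm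
  · have hwx : w k * zz = x := by rw [h]; cases k <;> rfl
    refine hw k ?_
    have hconj : ∃ y, w k * zz = y * w k * y⁻¹ := by
      have hall : ∀ (k b : Bool), ∃ y : M0,
          bb k * cond b aa 1 * zz = y * (bb k * cond b aa 1) * y⁻¹ := by decide +kernel
      exact hall k (ε k)
    obtain ⟨y, hy⟩ := hconj
    rw [← hwx, hy] at hR
    exact ((rel_conj (S := S) (e := e) (w k) y).trans hR.symm)

end CfsgLib.TwoTimesDihedralEight
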