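import Mathlib.GroupTheory.SpecificGroups.Dihedral
import Mathlib.Algebra.Group.TypeTags.Finite
import Mathlib.Data.ZMod.Basic
import Mathlib.Data.Fintype.Prod

/-!
Element facts in the product of a group of order 2 and the dihedral group of order 8.
-/

set_option autoImplicit false
set_option synthInstance.maxSize 512

namespace CfsgLib.TwoTimesDihedralEight

/-- The product of a group of order 2 and the dihedral group of order 8. -/
abbrev M0 : Type := Multiplicative (ZMod 2) × DihedralGroup 4

/-- The commutator involution. -/
def zz : M0 := (1, DihedralGroup.r 2)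

/-- A central involution outside the derived subgroup. -/
def aa : M0 := (Multiplicative.ofAdd 1, 1)

/-- A non-central involution. -/
def bb (k : Bool) : M0 := (1, DihedralGroup.sr (if k then 1 else 0))

/-- Membership in the two elementary abelian subgroups of order 8. -/
def inE (k : Bool) : M0 → Bool
  | (_, DihedralGroup.r i) => decide (i = 0 ∨ i = 2)
  | (_, DihedralGroup.sr i) =>
    if k then decide (i = 1 ∨ i = 3) else decide (i = 0 ∨ i = 2)

/-- The two elementary abelian subgroups of order 8. -/
def Ek (k : Bool) : Subgroup M0 where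
  carrier := {x | inE k x = true}
  one_mem' := by cases k <;> rfl
  mul_mem' := by
    have h : ∀ k x y, inE k x = true → inE k y = true → inE k (x * y) = true := by decide +kernel
    exact fun {x y} => h k x y
  inv_mem' := by
    have h : ∀ k x, inE k x = true → inE k x⁻¹ = true := by decide +kernel
    exact fun {x} => h k x

theorem mem_Ek {k : Bool} {x : M0} : x ∈ Ek k ↔ inE k x = true := Iff.rfl

/-- A non-central involution lies in exactly one of the two subgroups, its centralizer. -/
theorem centralizer_noncentral : ∀ u : M0, u * u = 1 → u ≠ 1 → u ≠ zz → u ≠ aa → u ≠ aa * zz →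
    (∀ x : M0, x * u = u * x ↔ inE (inE true u) x = true) ∧
      inE (inE true u) u = true ∧ inE (!inE true u) u = false := by decide +kernel

theorem Ek_abelian : ∀ k x y, inE k x = true → inE k y = true → x * x = 1 ∧ x * y = y * x := by
  decide +kernel

theorem Ek_normal : ∀ k x y, inE k x = true → inE k (y * x * y⁻¹) = true := by decide +kernel

theorem central_mem : ∀ k, inE k zz = true ∧ inE k aa = true ∧ inE k (aa * zz) = true ∧
    inE k (bb k) = true ∧ inE (!k) (bb k) = false := by decide +kernel

theorem central_comm : ∀ x : M0, x * zz = zz * x ∧ x * aa = aa * x := by decide +kernel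

theorem commutator_eq : ∀ x y : M0, x * y * x⁻¹ * y⁻¹ = 1 ∨ x * y * x⁻¹ * y⁻¹ = zz := by
  decide +kernel

theorem exists_commutator : ∃ x y : M0, x * y * x⁻¹ * y⁻¹ = zz := by decide +kernel

theorem central_involution : ∀ x : M0, (∀ y : M0, x * y = y * x) →
    x = 1 ∨ x = zz ∨ x = aa ∨ x = aa * zz := by decide +kernel

theorem card_Ek : ∀ k, (Finset.univ.filter fun x : M0 => inE k x = true).card = 8 := by
  decide +kernel

/-- A homomorphism onto the group of order 2 that is trivial on `zz` and on chosen non-central
involutions of the two subgroups, and non-trivial on `aa`. -/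
def lam (e₀ e₁ : Bool) : M0 → Bool
  | (c, DihedralGroup.r i) =>
    (decide (c ≠ 1)).xor ((decide (i = 1 ∨ i = 3)) && e₀.xor e₁)
  | (c, DihedralGroup.sr i) =>
    (decide (c ≠ 1)).xor (if decide (i = 1 ∨ i = 3) then e₁ else e₀)

theorem lam_mul : ∀ e₀ e₁ x y, lam e₀ e₁ (x * y) = (lam e₀ e₁ x).xor (lam e₀ e₁ y) := by
  decide +kernel

theorem lam_aa : ∀ e₀ e₁, lam e₀ e₁ aa = true := by decide +kernel

theorem lam_bb : ∀ e₀ e₁ : Bool,
    lam e₀ e₁ (bb false * cond e₀ aa 1) = false ∧ lam e₀ e₁ (bb true * cond e₁ aa 1) = false := by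
  decide +kernel

/-- The involutions in the kernel of `lam`. -/
theorem lam_involution : ∀ e₀ e₁ x, x * x = 1 → x ≠ 1 → lam e₀ e₁ x = false →
    x = zz ∨ ∃ k : Bool, inE k x = true ∧ inE (!k) x = false ∧
      (x = bb k * cond (cond k e₁ e₀) aa 1 ∨ x = bb k * cond (cond k e₁ e₀) aa 1 * zz) := by
  decide +kernel

end CfsgLib.TwoTimesDihedralEight
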